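import Cfsg.Agent.McLC.InvX

set_option autoImplicit false
set_option Elab.async false
set_option maxRecDepth 100000
set_option linter.all false

namespace Cfsg.Agent.McLC
open Cfsg.Agent.CGT

open Cfsg.Agent.Inv

noncomputable def cS : Srch := ⟨9, x_ts, chainBase [] c2_ls, [2], [2], []⟩
noncomputable def cR2_0 : ℕ := 0x80000000000000000000000000000000000000000000000000000000000000
noncomputable def cR0_0 : ℕ := 0x100000000
theorem c_aux : cS.auxB [0, 2, 4, 6, 8, 10, 12, 14, 16, 18, 20] c2_ls [] [0, 1, 0, 3, 0, 20] = true := by decide +kernel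
theorem c_f4 : freeB cS x_ns [52, 2, 137, 0] c2_l4 0 [[6], [8]] [] 0x8000000000800000000000001000000000800200000000000000080000 6 = true := by decide +kernel
theorem c_r2_0 : cS.run (.cons [8, 0] (.cons [] (.cons [] .nil (.cons [0] .nil (.cons [2] .nil (.cons [3] .nil (.cons [2, 0] .nil (.cons [3, 0] .nil .nil)))))) .nil) .nil) (⟨c2_l2.b, c2_l2.S, [], cR2_0, 0⟩ :: [c2_l3, c2_l4, c2_l5]) [0, 3, 0, 20] Pd.nil 0 = true := by decide +kernel
theorem c_f2 : freeB cS x_ns [137, 0] c2_l2 cR2_0 [[4], [6], [8]] [2, 1, 0, 2, 0, 2, 2, 0] 0x402000004000080000020000104401401040000120602100000140020800100028c4 28 = true := by decide +kernel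
theorem c_r0_0 : cS.run (.cons [12, 18] .nil .nil) (⟨c2_l0.b, c2_l0.S, [], cR0_0, 0⟩ :: [c2_l1, c2_l2, c2_l3, c2_l4, c2_l5]) [0, 1, 0, 3, 0, 20] Pd.nil 0 = true := by decide +kernel
theorem c_f0 : freeB cS x_ns [] c2_l0 cR0_0 [[0], [2], [4], [6], [8]] [4, 0, 4, 2, 4, 3, 2, 4, 2, 4] 0x5f97f9efff6fbffdfbbeae7ff3dffffff77ff79ffbfffffeffd7f7ffefffefffffff5 240 = true := by decide +kernel
theorem c_cb {G : Type*} [Group G] {φ : G →* Equiv.Perm ℕ} {γ : ℕ → G}
    (C : Cert φ γ 9 x_ns x_ts [0, 2, 4, 6, 8, 10, 12, 14, 16, 18, 20] c2_ls) : CB φ (ev (ext γ) [2]) [] (240 * (28 * (6 * (1)))) :=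
  haveI := C.fin
  have X := C.exact
  have A := Srch.auxB_sound (S := cS) C.M (K := ⊤) le_top rfl c_aux
  (CB.free (S := cS) C.M C.base rfl rfl X (Srch.found_of_run (S := cS) C.M C.base (by decide +kernel) X A c_r0_0) c_f0
    (CB.forced (S := cS) A.2 (CB.free (S := cS) C.M C.base rfl rfl X.2.2 (Srch.found_of_run (S := cS) C.M C.base (by decide +kernel) X.2.2 A.2.2 c_r2_0) c_f2
    (CB.forced (S := cS) A.2.2.2 (CB.free (S := cS) C.M C.base rfl rfl X.2.2.2.2 found_zero c_f4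
    (CB.forced (S := cS) A.2.2.2.2.2 (CB.base X.2.2.2.2.2.2)))))))
theorem cent_cert {G : Type*} [Group G] {φ : G →* Equiv.Perm ℕ} {γ : ℕ → G}
    (C : Cert φ γ 9 x_ns x_ts [0, 2, 4, 6, 8, 10, 12, 14, 16, 18, 20] c2_ls) :
    orderOf (ev (ext γ) [2]) = 2 ∧ ∃ δ : ℕ → Subgroup.centralizer {ev (ext γ) [2]}, (∀ j, (δ j : G) = tk γ 5 j) ∧
      Cert (φ.comp (Subgroup.subtype _)) δ 9 y_ns y_ts [0, 2, 4, 6, 8] cc_ls :=
  ⟨ord2B_sound C.M C.base (b := 0) (by decide +kernel),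
    Inv.cert_cent C.M C.base rfl rfl (by decide +kernel) (c_cb C) cc_sound (by decide +kernel)⟩

end Cfsg.Agent.McLC
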