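import Cfsg.Agent.McLC.InvXD

set_option autoImplicit false
set_option Elab.async false
set_option maxRecDepth 100000
set_option linter.all false

namespace Cfsg.Agent.McLC
open Cfsg.Agent.CGT

open Cfsg.Agent.Inv

theorem x_p : Holds (lp x_ns) x_R := holdsB_sound x_v (by decide +kernel)
theorem x_t0_b : Tab.beq (mkTab 9 2 x_ns 0) x_t0 = true := by decide +kernel
theorem x_t2_b : Tab.beq (mkTab 9 2 x_ns 2) x_t2 = true := by decide +kernel
theorem x_t4_b : Tab.beq (mkTab 9 2 x_ns 4) x_t4 = true := by decide +kernel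
theorem x_t6_b : Tab.beq (mkTab 9 2 x_ns 6) x_t6 = true := by decide +kernel
theorem x_t8_b : Tab.beq (mkTab 9 2 x_ns 8) x_t8 = true := by decide +kernel
theorem x_t9_b : Tab.beq (mkTab 9 2 x_ns 9) x_t9 = true := by decide +kernel
theorem x_t10_b : Tab.beq (mkTab 9 2 x_ns 10) x_t10 = true := by decide +kernel
theorem x_t11_b : Tab.beq (mkTab 9 2 x_ns 11) x_t11 = true := by decide +kernel
theorem x_t12_b : Tab.beq (mkTab 9 2 x_ns 12) x_t12 = true := by decide +kernel
theorem x_t14_b : Tab.beq (mkTab 9 2 x_ns 14) x_t14 = true := by decide +kernel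
theorem x_t16_b : Tab.beq (mkTab 9 2 x_ns 16) x_t16 = true := by decide +kernel
theorem x_t17_b : Tab.beq (mkTab 9 2 x_ns 17) x_t17 = true := by decide +kernel
theorem x_t18_b : Tab.beq (mkTab 9 2 x_ns 18) x_t18 = true := by decide +kernel
theorem x_t20_b : Tab.beq (mkTab 9 2 x_ns 20) x_t20 = true := by decide +kernel
theorem x_e0 : extJ 9 m_ns x_ns x_W 0 = true := by decide +kernel
theorem x_e1 : extJ 9 m_ns x_ns x_W 1 = true := by decide +kernel
theorem x_e2 : extJ 9 m_ns x_ns x_W 2 = true := by decide +kernel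
theorem x_e3 : extJ 9 m_ns x_ns x_W 3 = true := by decide +kernel
theorem x_e4 : extJ 9 m_ns x_ns x_W 4 = true := by decide +kernel
theorem x_e5 : extJ 9 m_ns x_ns x_W 5 = true := by decide +kernel
theorem x_e6 : extJ 9 m_ns x_ns x_W 6 = true := by decide +kernel
theorem x_e7 : extJ 9 m_ns x_ns x_W 7 = true := by decide +kernel
theorem x_e8 : extJ 9 m_ns x_ns x_W 8 = true := by decide +kernel
theorem x_e9 : extJ 9 m_ns x_ns x_W 9 = true := by decide +kernel
theorem x_e10 : extJ 9 m_ns x_ns x_W 10 = true := by decide +kernel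
theorem c2_l0_ok : (ptsOK 9 [] && (wordsIn [0, 2, 4, 6, 8, 10, 12, 14, 16, 18, 20] c2_l0.S && c2_l0.ok 9 x_ns x_ts [])) = true := by decide +kernel
theorem c2_l1_ok : (ptsOK 9 [0] && (wordsIn [0, 2, 4, 6, 8, 10, 12, 14, 16, 18, 20] c2_l1.S && c2_l1.ok 9 x_ns x_ts [0])) = true := by decide +kernel
theorem c2_l2_ok : c2_l2.okT 9 x_ts [0, 2, 4, 6, 8, 10, 12, 14, 16, 18, 20] [137, 0] (.cons [0] (.cons [2] (.cons [4] (.cons [8] .nil .nil) (.cons [7] .nil (.cons [8] (.cons [0] (.cons [8] .nil .nil) (.cons [7] (.cons [0] .nil .nil) .nil)) .nil))) (.cons [4] (.cons [0] (.cons [2] .nil (.cons [4] (.cons [0] .nil .nil) (.cons [6] .nil .nil))) (.cons [8] .nil .nil)) (.cons [5] (.cons [0] (.cons [5] (.cons [0] .nil .nil) (.cons [6] .nil (.cons [7] .nil (.cons [8] .nil .nil)))) (.cons [8] (.cons [0] (.cons [2] .nil (.cons [4] .nil (.cons [5] .nil (.cons [7] .nil .nil)))) .nil) .nil)) (.cons [6] (.cons [0] (.cons [6] .nil .nil) (.cons [5] (.cons [8] .nil .nil)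 (.cons [8] (.cons [0] .nil (.cons [2] .nil (.cons [5] .nil (.cons [6] .nil (.cons [7] .nil .nil))))) .nil))) (.cons [7] (.cons [0] .nil (.cons [8] .nil .nil)) (.cons [8] (.cons [0] (.cons [6] .nil .nil) (.cons [2] .nil (.cons [4] (.cons [0] (.cons [7] .nil .nil) .nil) (.cons [5] (.cons [6] .nil .nil) (.cons [6] (.cons [0] .nil .nil) .nil))))) .nil)))))) .nil) = true := by decide +kernel
theorem c2_l3_ok : c2_l3.okT 9 x_ts [0, 2, 4, 6, 8, 10, 12, 14, 16, 18, 20] [2, 137, 0] (.cons [6] (.cons [0] .nil (.cons [3] (.cons [4] (.cons [6] .nil .nil) .nil) (.cons [4] .nil (.cons [5] (.cons [0] (.cons [6] (.cons [5] .nil .nil) .nil) (.cons [2] (.cons [6] .nil .nil) (.cons [3] (.cons [6] (.cons [0] .nil (.cons [3] (.cons [4] (.cons [6] .nil .nil) .nil) (.cons [4] .nil .nil))) .nil) .nil))) .nil)))) .nil) = true := by decide +kernel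

end Cfsg.Agent.McLC
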